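import Mathlib
import Cfsg.Agent.Lib.AutPSp.Semi
import Cfsg.Agent.Lib.AutPSp.Pres

/-!
The exceptional automorphism of `Sp_4(F)`, `F` of characteristic two.
-/

set_option autoImplicit false
set_option linter.unusedVariables false
set_option linter.unusedSectionVars false
set_option linter.unusedSimpArgs false

namespace Cfsg.Agent.Lib.AutPSp

open Matrix Cfsg Cfsg.Agent.Lib.Classical
open scoped MatrixGroups Pointwise
open Cfsg.Agent.Lib.RootSubgroups.SpRoot (sp_ext tv_mulVec tv_mul tv_zero tv_inv tv_eq_one_iff tv_smul conj_tv)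

variable {F : Type*} [Field F]

local notation "ff" => Cfsg.sympForm 2 F

/-- The pairs of basis vectors with orthogonal members. -/
def prs : II 2 → II 2 × II 2 :=
  Sum.elim (fun i => if i = 0 then (Sum.inl 0, Sum.inl 1) else (Sum.inl 0, Sum.inr 1))
    (fun i => if i = 0 then (Sum.inr 0, Sum.inr 1) else (Sum.inr 0, Sum.inl 1))

@[simp] lemma prs_l0 : prs (Sum.inl 0) = (Sum.inl 0, Sum.inl 1) := rfl
@[simp] lemma prs_l1 : prs (Sum.inl 1) = (Sum.inl 0, Sum.inr 1) := rfl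
@[simp] lemma prs_r0 : prs (Sum.inr 0) = (Sum.inr 0, Sum.inr 1) := rfl
@[simp] lemma prs_r1 : prs (Sum.inr 1) = (Sum.inr 0, Sum.inl 1) := rfl

lemma II2_cases {P : II 2 → Prop} (h1 : P (Sum.inl 0)) (h2 : P (Sum.inl 1)) (h3 : P (Sum.inr 0)) (h4 : P (Sum.inr 1))
    (a : II 2) : P a := by
  rcases a with i | i <;> fin_cases i <;> assumption

lemma sum_II2 {M : Type*} [AddCommMonoid M] (g : II 2 → M) :
    ∑ a, g a = g (Sum.inl 0) + g (Sum.inl 1) + (g (Sum.inr 0) + g (Sum.inr 1)) := by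
  rw [Fintype.sum_sum_type, Fin.sum_univ_two, Fin.sum_univ_two]

lemma prs_adm (A : II 2) : Adm (prs A).1 (prs A).2 := by
  revert A
  apply II2_cases <;> simp [Adm]

/-- The Plücker coordinates. -/
def Pl (x y : VV 2 F) : VV 2 F := fun A => x (prs A).1 * y (prs A).2 + x (prs A).2 * y (prs A).1

/-- The exceptional matrix. -/
def psiMat (g : MM 2 F) : MM 2 F :=
  Matrix.of fun A B => g (prs A).1 (prs B).1 * g (prs A).2 (prs B).2 + g (prs A).1 (prs B).2 * g (prs A).2 (prs B).1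

lemma psiMat_col (g : MM 2 F) (B : II 2) :
    psiMat g *ᵥ ee B = Pl (g *ᵥ ee (prs B).1) (g *ᵥ ee (prs B).2) := by
  funext A
  simp [psiMat, Pl, mul_comm]

lemma star_id {R : Type*} [CommRing R] (h2 : (2 : R) = 0) (r0 r1 r2 r3 s0 s1 s2 s3 x0 x1 x2 x3 y0 y1 y2 y3 : R)
    (H1 : x2 * y0 + x0 * y2 + x3 * y1 + x1 * y3 = 0) (H2 : r2 * s0 + r0 * s2 + r3 * s1 + r1 * s3 = 0) :
    (r0 * x0 + r1 * x1 + r2 * x2 + r3 * x3) * (s0 * y0 + s1 * y1 + s2 * y2 + s3 * y3) +
      (s0 * x0 + s1 * x1 + s2 * x2 + s3 * x3) * (r0 * y0 + r1 * y1 + r2 * y2 + r3 * y3) =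
    (r0 * s1 + r1 * s0) * (x0 * y1 + x1 * y0) + (r0 * s3 + r3 * s0) * (x0 * y3 + x3 * y0) +
      ((r2 * s3 + r3 * s2) * (x2 * y3 + x3 * y2) + (r2 * s1 + r1 * s2) * (x2 * y1 + x1 * y2)) := by
  linear_combination (r0 * s0 * x0 * y0 + r1 * s1 * x1 * y1 + r2 * s2 * x2 * y2 + r3 * s3 * x3 * y3
    - (r0 * s2 + r2 * s0) * (x1 * y3 + x3 * y1)) * h2 + (r0 * s2 + r2 * s0) * H1 + (x1 * y3 + x3 * y1) * H2

lemma symp_two (h2 : (2 : F) = 0) (u v : VV 2 F) :
    ff u v = u (Sum.inr 0) * v (Sum.inl 0) + u (Sum.inl 0) * v (Sum.inr 0) + u (Sum.inr 1) * v (Sum.inl 1) +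
      u (Sum.inl 1) * v (Sum.inr 1) := by
  rw [sympForm_apply, Fin.sum_univ_two]
  linear_combination (-(u (Sum.inl 0) * v (Sum.inr 0) + u (Sum.inl 1) * v (Sum.inr 1))) * h2

lemma mv_two (g : MM 2 F) (x : VV 2 F) (a : II 2) :
    (g *ᵥ x) a = g a (Sum.inl 0) * x (Sum.inl 0) + g a (Sum.inl 1) * x (Sum.inl 1) + g a (Sum.inr 0) * x (Sum.inr 0) +
      g a (Sum.inr 1) * x (Sum.inr 1) := by
  simp only [Matrix.mulVec, dotProduct, sum_II2]
  ring

/-- Rows of a symplectic matrix are orthogonal. -/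
lemma row_orth (g : SpG 2 F) {a b : II 2} (h : Adm a b) :
    ff (fun c => (g : MM 2 F) a c) (fun c => (g : MM 2 F) b c) = 0 := by
  have hT : (g : MM 2 F)ᵀ ∈ symplecticGroup (Fin 2) F := SymplecticGroup.transpose_mem g.2
  have h1 := mem_symplecticGroup_iff_preserves.mp hT (ee a) (ee b)
  rw [h.f] at h1
  have e : ∀ t : II 2, ((g : MM 2 F)ᵀ *ᵥ ee t) = fun c => (g : MM 2 F) t c := by
    intro t
    funext c
    simp
  rw [e, e] at h1
  exact h1

/-- The basic transformation rule. -/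
lemma Pl_mv (h2 : (2 : F) = 0) (g : SpG 2 F) {x y : VV 2 F} (hxy : ff x y = 0) :
    Pl ((g : MM 2 F) *ᵥ x) ((g : MM 2 F) *ᵥ y) = psiMat (g : MM 2 F) *ᵥ Pl x y := by
  funext A
  have hr := row_orth g (prs_adm A)
  rw [symp_two h2] at hr hxy
  have := star_id h2 ((g : MM 2 F) (prs A).1 (Sum.inl 0)) ((g : MM 2 F) (prs A).1 (Sum.inl 1))
    ((g : MM 2 F) (prs A).1 (Sum.inr 0)) ((g : MM 2 F) (prs A).1 (Sum.inr 1))
    ((g : MM 2 F) (prs A).2 (Sum.inl 0)) ((g : MM 2 F) (prs A).2 (Sum.inl 1))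
    ((g : MM 2 F) (prs A).2 (Sum.inr 0)) ((g : MM 2 F) (prs A).2 (Sum.inr 1))
    (x (Sum.inl 0)) (x (Sum.inl 1)) (x (Sum.inr 0)) (x (Sum.inr 1))
    (y (Sum.inl 0)) (y (Sum.inl 1)) (y (Sum.inr 0)) (y (Sum.inr 1)) hxy hr
  simp only [Pl, mv_two, psiMat, Matrix.of_apply, prs_l0, prs_l1, prs_r0, prs_r1]
  linear_combination this

lemma psiMat_one (h2 : (2 : F) = 0) : psiMat (1 : MM 2 F) = 1 := by
  ext A B
  revert A B
  apply II2_cases <;> apply II2_cases <;> simp [psiMat, Matrix.one_apply]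

lemma psiMat_mul (h2 : (2 : F) = 0) (g h : SpG 2 F) :
    psiMat ((g : MM 2 F) * (h : MM 2 F)) = psiMat (g : MM 2 F) * psiMat (h : MM 2 F) := by
  ext A B
  have h1 := congrFun (psiMat_col ((g : MM 2 F) * (h : MM 2 F)) B) A
  have h3 : ff ((h : MM 2 F) *ᵥ ee (prs B).1) ((h : MM 2 F) *ᵥ ee (prs B).2) = 0 := by
    rw [sp_preserves]
    exact (prs_adm B).f
  rw [← mulVec_mulVec, ← mulVec_mulVec, Pl_mv h2 g h3, ← psiMat_col] at h1
  rw [mulVec_mulVec] at h1
  simpa using h1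

lemma sg_two' (h2 : (2 : F) = 0) (a : II 2) : -(sg a : F) = 1 := by
  rcases a with i | i
  · simp [sg]
  · simp only [sg]
    linear_combination -h2

lemma f_right_two (h2 : (2 : F) = 0) (x : VV 2 F) (a : II 2) : ff x (ee a) = x a.swap := by
  rw [f_ee_right, ← neg_mul, sg_two' h2, one_mul]

lemma tv_ent (h2 : (2 : F) = 0) (a k l : II 2) (c : F) :
    ((tv (ee a) c : SpG 2 F) : MM 2 F) k l = (ee l : VV 2 F) k + c * (ee l : VV 2 F) a.swap * (ee a : VV 2 F) k := by
  rw [entry_eq ((tv (ee a) c : SpG 2 F) : MM 2 F) k l, tv_mulVec, f_right_two h2]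
  simp

lemma ss_ent (h2 : (2 : F) = 0) {a b : II 2} (h : Adm a b) (k l : II 2) (c : F) :
    ((SS (ee a) (ee b) c : SpG 2 F) : MM 2 F) k l =
      (ee l : VV 2 F) k + c * ((ee l : VV 2 F) a.swap * (ee b : VV 2 F) k + (ee l : VV 2 F) b.swap * (ee a : VV 2 F) k) := by
  rw [entry_eq ((SS (ee a) (ee b) c : SpG 2 F) : MM 2 F) k l, SS_mv h.f, f_right_two h2, f_right_two h2]
  simp
  ring

lemma psi_L (h2 : (2 : F) = 0) (a : II 2) (c : F) :
    psiMat ((tv (ee a) c : SpG 2 F) : MM 2 F) = ((SS (ee (prs a).1) (ee (prs a).2) c : SpG 2 F) : MM 2 F) := by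
  ext A B
  rw [ss_ent h2 (prs_adm a)]
  simp only [psiMat, Matrix.of_apply, tv_ent h2]
  revert a A B
  apply II2_cases <;> apply II2_cases <;> apply II2_cases <;> simp [Pi.single_apply]

lemma psi_S (h2 : (2 : F) = 0) (a : II 2) (c : F) :
    psiMat ((SS (ee (prs a).1) (ee (prs a).2) c : SpG 2 F) : MM 2 F) = ((tv (ee a) (c * c) : SpG 2 F) : MM 2 F) := by
  ext A B
  rw [tv_ent h2]
  simp only [psiMat, Matrix.of_apply, ss_ent h2 (prs_adm a)]
  revert a A B
  apply II2_cases <;> apply II2_cases <;> apply II2_cases <;> simp [Pi.single_apply]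

lemma adm_cases {a b : II 2} (h : Adm a b) : ∃ A, (a, b) = prs A ∨ (b, a) = prs A := by
  revert a b
  apply II2_cases <;> apply II2_cases <;> simp [Adm]

variable [Fintype F]

/-- `psiMat` maps `Sp` into `Sp`. -/
lemma psi_mem (h2 : (2 : F) = 0) (g : SpG 2 F) : psiMat (g : MM 2 F) ∈ symplecticGroup (Fin 2) F := by
  classical
  let H : Subgroup (SpG 2 F) :=
    { carrier := {g | psiMat (g : MM 2 F) ∈ symplecticGroup (Fin 2) F}
      mul_mem' := fun {a b} ha hb => by
        show psiMat ((a : MM 2 F) * (b : MM 2 F)) ∈ symplecticGroup (Fin 2) F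
        rw [psiMat_mul h2]
        exact mul_mem ha hb
      one_mem' := by
        show psiMat (1 : MM 2 F) ∈ symplecticGroup (Fin 2) F
        rw [psiMat_one h2]
        exact one_mem _
      inv_mem' := fun {a} ha => by
        have hk : ∀ k : ℕ, psiMat ((a ^ k : SpG 2 F) : MM 2 F) ∈ symplecticGroup (Fin 2) F := by
          intro k
          induction k with
          | zero =>
            have : (((a ^ 0 : SpG 2 F)) : MM 2 F) = 1 := rfl
            rw [this, psiMat_one h2]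
            exact one_mem _
          | succ k ih =>
            rw [pow_succ]
            have : (((a ^ k * a : SpG 2 F)) : MM 2 F) = ((a ^ k : SpG 2 F) : MM 2 F) * (a : MM 2 F) := rfl
            rw [this, psiMat_mul h2]
            exact mul_mem ih ha
        have h3 : a⁻¹ = a ^ (orderOf a - 1) := by
          apply inv_eq_of_mul_eq_one_right
          rw [← pow_succ', Nat.sub_add_cancel (orderOf_pos a), pow_orderOf_eq_one]
        show psiMat ((a⁻¹ : SpG 2 F) : MM 2 F) ∈ symplecticGroup (Fin 2) F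
        rw [h3]
        exact hk _ }
  have hH : H = ⊤ := by
    apply gen_top _ _ (by norm_num : 1 ≤ 2)
    · intro a c
      show psiMat ((tv (ee a) c : SpG 2 F) : MM 2 F) ∈ symplecticGroup (Fin 2) F
      rw [psi_L h2]
      exact Subtype.coe_prop _
    · intro a b hab c
      obtain ⟨A, hA | hA⟩ := adm_cases hab
      · show psiMat ((SS (ee a) (ee b) c : SpG 2 F) : MM 2 F) ∈ symplecticGroup (Fin 2) F
        have e1 : a = (prs A).1 := congrArg Prod.fst hA
        have e2 : b = (prs A).2 := congrArg Prod.snd hA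
        rw [e1, e2, psi_S h2]
        exact Subtype.coe_prop _
      · show psiMat ((SS (ee a) (ee b) c : SpG 2 F) : MM 2 F) ∈ symplecticGroup (Fin 2) F
        have e1 : b = (prs A).1 := congrArg Prod.fst hA
        have e2 : a = (prs A).2 := congrArg Prod.snd hA
        rw [SS_comm hab.f, e1, e2, psi_S h2]
        exact Subtype.coe_prop _
  have : g ∈ H := by rw [hH]; trivial
  exact this

/-- The exceptional endomorphism. -/
def psiH (h2 : (2 : F) = 0) : SpG 2 F →* SpG 2 F :=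
  MonoidHom.mk' (fun g => ⟨psiMat (g : MM 2 F), psi_mem h2 g⟩) (by
    intro a b
    apply Subtype.ext
    exact psiMat_mul h2 a b)

lemma psiH_L (h2 : (2 : F) = 0) (a : II 2) (c : F) :
    psiH h2 (tv (ee a) c) = SS (ee (prs a).1) (ee (prs a).2) c :=
  Subtype.ext (psi_L h2 a c)

lemma psiH_S (h2 : (2 : F) = 0) (a : II 2) (c : F) :
    psiH h2 (SS (ee (prs a).1) (ee (prs a).2) c) = tv (ee a) (c * c) :=
  Subtype.ext (psi_S h2 a c)

/-- Squaring as a ring homomorphism, in characteristic two. -/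
def sqHom (h2 : (2 : F) = 0) : F →+* F where
  toFun := fun x => x * x
  map_one' := by simp
  map_mul' := fun x y => by ring
  map_zero' := by simp
  map_add' := fun x y => by linear_combination (x * y) * h2

lemma sqHom_apply (h2 : (2 : F) = 0) (x : F) : sqHom h2 x = x * x := rfl

lemma sqHom_bij (h2 : (2 : F) = 0) : Function.Bijective (sqHom h2) := by
  have hinj : Function.Injective (sqHom h2) := (sqHom h2).injective
  exact ⟨hinj, Finite.injective_iff_surjective.mp hinj⟩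

/-- Entrywise Frobenius on `Sp`. -/
noncomputable def sq2 (h2 : (2 : F) = 0) : F ≃+* F :=
  RingEquiv.ofBijective (sqHom h2) (sqHom_bij h2)

lemma sq2_apply (h2 : (2 : F) = 0) (x : F) : sq2 h2 x = x * x := rfl

/-- The field automorphism applied on `Sp`. -/
def fieldH (σ : F ≃+* F) : SpG 2 F →* SpG 2 F :=
  semi (1 : GL (II 2) F) (l := 1) (by intro u v; simp) σ

lemma fieldH_coe (σ : F ≃+* F) (g : SpG 2 F) : ((fieldH σ g : SpG 2 F) : MM 2 F) = (g : MM 2 F).map σ := by
  show gm 1 * _ * gm 1⁻¹ = _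
  simp

lemma gm_one_mv (x : VV 2 F) : (gm (1 : GL (II 2) F)) *ᵥ x = x := by
  show ((1 : MM 2 F)) *ᵥ x = x
  exact Matrix.one_mulVec x

lemma fieldH_tv (σ : F ≃+* F) (a : II 2) (c : F) : fieldH σ (tv (ee a) c) = tv (ee a) (σ c) := by
  rw [fieldH, semi_tv, vmap_ee, gm_one_mv]
  simp

lemma fieldH_SS (σ : F ≃+* F) (a b : II 2) (c : F) : fieldH σ (SS (ee a) (ee b) c) = SS (ee a) (ee b) (σ c) := by
  rw [fieldH, semi_SS _ _ _ _ _ _ (by intro x y; funext i; simp [vmap]), vmap_ee, vmap_ee, gm_one_mv, gm_one_mv]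
  simp

lemma psi_psi (h2 : (2 : F) = 0) (g : SpG 2 F) : psiH h2 (psiH h2 g) = fieldH (sq2 h2) g := by
  classical
  have hH : ((psiH h2).comp (psiH h2)).eqLocus (fieldH (sq2 h2)) = ⊤ := by
    apply gen_top _ _ (by norm_num : 1 ≤ 2)
    · intro a c
      show psiH h2 (psiH h2 _) = fieldH _ _
      rw [psiH_L, psiH_S, fieldH_tv, sq2_apply]
    · intro a b hab c
      obtain ⟨A, hA | hA⟩ := adm_cases hab
      · show psiH h2 (psiH h2 _) = fieldH _ _
        have e1 : a = (prs A).1 := congrArg Prod.fst hA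
        have e2 : b = (prs A).2 := congrArg Prod.snd hA
        rw [e1, e2, psiH_S, psiH_L, fieldH_SS, sq2_apply]
      · show psiH h2 (psiH h2 _) = fieldH _ _
        have e1 : b = (prs A).1 := congrArg Prod.fst hA
        have e2 : a = (prs A).2 := congrArg Prod.snd hA
        rw [SS_comm hab.f, e1, e2, psiH_S, psiH_L, fieldH_SS, sq2_apply]
  have : g ∈ ((psiH h2).comp (psiH h2)).eqLocus (fieldH (sq2 h2)) := by rw [hH]; trivial
  exact this

lemma fieldH_inj (σ : F ≃+* F) : Function.Injective (fieldH σ) := by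
  intro a b h
  apply Subtype.ext
  have h1 := congrArg (fun t : SpG 2 F => (t : MM 2 F)) h
  simp only [fieldH_coe] at h1
  ext i j
  exact σ.injective (congrFun (congrFun h1 i) j)

lemma psiH_bij (h2 : (2 : F) = 0) : Function.Bijective (psiH h2) := by
  have hinj : Function.Injective (psiH h2) := by
    intro a b h
    apply fieldH_inj (sq2 h2)
    rw [← psi_psi, ← psi_psi, h]
  exact ⟨hinj, Finite.injective_iff_surjective.mp hinj⟩

/-- The quotient map is bijective in characteristic two. -/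
noncomputable def eP (h2 : (2 : F) = 0) : SpG 2 F ≃* PSp 2 F :=
  MulEquiv.ofBijective mk ⟨fun _ _ h => mk_inj_two h2 (by norm_num) h, mk_surj⟩

/-- The exceptional automorphism of `PSp_4`. -/
noncomputable def Psi (h2 : (2 : F) = 0) : PSp 2 F ≃* PSp 2 F :=
  (eP h2).symm.trans ((MulEquiv.ofBijective (psiH h2) (psiH_bij h2)).trans (eP h2))

lemma Psi_mk (h2 : (2 : F) = 0) (s : SpG 2 F) : Psi h2 (mk s) = mk (psiH h2 s) := by
  show eP h2 (psiH h2 ((eP h2).symm (eP h2 s))) = _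
  rw [MulEquiv.symm_apply_apply]
  rfl

end Cfsg.Agent.Lib.AutPSp
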