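import Mathlib
import Cfsg.Agent.Lib.AutPSp.Exc

/-!
The outer automorphism group of `PSp_4(2^f)`.
-/

set_option autoImplicit false
set_option linter.unusedVariables false
set_option linter.unusedSectionVars false
set_option linter.unusedSimpArgs false

namespace Cfsg.Agent.Lib.AutPSp

open Matrix Cfsg Cfsg.Agent.Lib.Classical
open scoped MatrixGroups Pointwise
open Cfsg.Agent.Lib.RootSubgroups.SpRoot (sp_ext tv_mulVec tv_mul tv_zero tv_inv tv_eq_one_iff tv_smul conj_tv)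

variable {F : Type*} [Field F] [Fintype F]

local notation "ff" => Cfsg.sympForm 2 F

/-- The base long element. -/
def x00 : PSp 2 F := rt (ee (Sum.inl 0)) 1

lemma exists_sqrt (h2 : (2 : F) = 0) (c : F) : ∃ r, r * r = c := (sqHom_bij h2).2 c

lemma long_conj (h2 : (2 : F) = 0) {u : VV 2 F} {c : F} (hu : u ≠ 0) (hc : c ≠ 0) :
    ∃ y : PSp 2 F, y * x00 * y⁻¹ = rt u c := by
  obtain ⟨r, hr⟩ := exists_sqrt h2 c
  have hr0 : r ≠ 0 := by
    rintro rfl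
    apply hc
    rw [← hr, mul_zero]
  have hu' : r • u ≠ 0 := smul_ne_zero hr0 hu
  obtain ⟨g, -, hg⟩ := exists_good_move (m := 2) ⊤ top_nondeg (u := ee (Sum.inl 0)) (u' := r • u) trivial trivial (ee_ne _) hu'
  refine ⟨mk g, ?_⟩
  rw [x00, rt_conj, hg, rt, tv_smul, one_mul, hr]
  rfl

lemma pres_of_x0 (h2 : (2 : F) = 0) {β : PSp 2 F ≃* PSp 2 F} {g : PSp 2 F} {a : F}
    (e : g * β x00 * g⁻¹ = rt (ee (Sum.inl 0)) a) : Pres β := by
  intro u c hu hc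
  obtain ⟨y, hy⟩ := long_conj h2 hu hc
  have hne : β (rt u c) ≠ 1 := by
    intro h
    exact rt_ne_one (by norm_num) hu hc ((map_eq_one_iff β β.injective).mp h)
  have e1 : β (rt u c) = β y * β x00 * (β y)⁻¹ := by
    rw [← hy]
    simp
  apply form_of_conj (le_refl 2) hne (g := g * (β y)⁻¹) (a := a)
  rw [e1]
  calc g * (β y)⁻¹ * (β y * β x00 * (β y)⁻¹) * (g * (β y)⁻¹)⁻¹ = g * β x00 * g⁻¹ := by group
    _ = _ := e

lemma not_PA2 (h2 : (2 : F) = 0) {f' : ℕ} (hF : Fintype.card F = 2 ^ f') (hf : 1 ≤ f') {a b : F} (ha : a ≠ 0) (hb : b ≠ 0) :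
    ¬ PA 2 (mk (NN (ee (Sum.inl (0 : Fin 2))) (ee (Sum.inl (1 : Fin 2))) a 0 b)) := by
  classical
  intro hPA
  have : CharP F 2 := by
    have : Nonempty F := ⟨0⟩
    exact CharTwo.of_one_ne_zero_of_two_eq_zero one_ne_zero h2
  obtain ⟨g₁, hg₁⟩ := exists_perm (F := F) h2 (Equiv.sumCongr (Equiv.swap (0 : Fin 2) 1) (Equiv.swap (0 : Fin 2) 1)) (by
    intro x
    rcases x with i | i <;> simp)
  obtain ⟨g₂, hg₂⟩ := exists_perm (F := F) h2 (Equiv.swap (Sum.inl (1 : Fin 2)) (Sum.inr (1 : Fin 2))) (by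
    apply II2_cases <;> decide)
  set e₀ : VV 2 F := ee (Sum.inl 0) with he₀
  set e₁ : VV 2 F := ee (Sum.inl 1) with he₁
  set f₁ : VV 2 F := ee (Sum.inr 1) with hf₁
  set z₀ := mk (NN e₀ e₁ a 0 b) with hz₀
  set t₁ := NN e₁ e₀ a 0 b with ht₁
  set t₂ := NN e₀ f₁ a 0 b with ht₂
  have c1 : mk g₁ * z₀ * (mk g₁)⁻¹ = mk t₁ := by
    rw [hz₀, ← map_inv, ← map_mul, ← map_mul, conj_NN, hg₁, hg₁]
    simp [he₀, he₁, ht₁]
  have c2 : mk g₂ * z₀ * (mk g₂)⁻¹ = mk t₂ := by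
    rw [hz₀, ← map_inv, ← map_mul, ← map_mul, conj_NN, hg₂, hg₂]
    have e1 : Equiv.swap (Sum.inl (1 : Fin 2)) (Sum.inr (1 : Fin 2)) (Sum.inl (0 : Fin 2)) = Sum.inl 0 := by decide
    have e2 : Equiv.swap (Sum.inl (1 : Fin 2)) (Sum.inr (1 : Fin 2)) (Sum.inl (1 : Fin 2)) = Sum.inr 1 := by decide
    rw [e1, e2]
  have hP1 : PA 2 (mk t₁) := by
    have := hPA.map (MulAut.conj (mk g₁))
    rwa [MulAut.conj_apply, c1] at this
  have hff1 : ff e₁ e₀ = 0 := f_ee_inl_inl _ _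
  have hff2 : ff e₀ f₁ = 0 := f_ee_inl_inr (by decide)
  have m1 : t₁ ∈ UU 2 F := by
    apply isUU_of_fixE
    intro j
    rw [ht₁, NN_mv hff1, f_ee_inl_inl, f_ee_inl_inl]
    simp
  have m2 : t₂ ∈ UU 2 F := by
    rw [ht₂, NN, tv_zero, mul_one]
    have hlt : (0 : Fin 2) < 1 := by decide
    exact mul_mem (tv_inl_mem _ _) (SS_mem_UU hlt _)
  have hq : mk g₂ * (mk g₁)⁻¹ * mk t₁ * (mk g₂ * (mk g₁)⁻¹)⁻¹ = mk t₂ := by
    rw [← c1, ← c2]
    group
  have hcomm := hP1 (mk g₂ * (mk g₁)⁻¹) ⟨(sylowPP hF hf : Sylow 2 (PSp 2 F)), Sylow.isPGroup' _,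
    mem_sylowPP.2 ⟨_, m1, rfl⟩, by
      rw [hq]
      exact mem_sylowPP.2 ⟨_, m2, rfl⟩⟩
  rw [hq] at hcomm
  have h3 : t₁ * t₂ = t₂ * t₁ := by
    apply mk_inj_two h2 (by norm_num)
    rw [map_mul, map_mul]
    exact hcomm
  have h4 := congrArg (fun t : SpG 2 F => (t : MM 2 F) *ᵥ f₁) h3
  simp only [mv_mul] at h4
  have e3 : (t₂ : MM 2 F) *ᵥ f₁ = f₁ := by
    rw [ht₂, NN_mv hff2, he₀, hf₁, f_right_two h2, f_right_two h2]
    simp
  have e4 : (t₁ : MM 2 F) *ᵥ f₁ = f₁ + a • e₁ + b • e₀ := by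
    rw [ht₁, NN_mv hff1, he₀, he₁, hf₁, f_right_two h2, f_right_two h2]
    simp
  rw [e3, e4, ht₂, NN_mv hff2] at h4
  have h5 := congrFun h4 (Sum.inl 0)
  simp only [he₀, he₁, hf₁, f_right_two h2] at h5
  simp [Pi.single_apply] at h5
  exact h5.elim hb ha

theorem dich (h2 : (2 : F) = 0) {f' : ℕ} (hF : Fintype.card F = 2 ^ f') (hf : 1 ≤ f') (β : PSp 2 F ≃* PSp 2 F) :
    Pres β ∨ Pres (β.trans (Psi h2).symm) := by
  classical
  have : CharP F 2 := by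
    have : Nonempty F := ⟨0⟩
    exact CharTwo.of_one_ne_zero_of_two_eq_zero one_ne_zero h2
  have hm2 : 2 ≤ 2 := le_refl 2
  obtain ⟨g, hg1, hg2⟩ := ((CS_rt hm2 hF hf (u := ee (Sum.inl (i0 hm2))) (ee_ne _) 1).map β).exists_conj (sylowPP hF hf)
  obtain ⟨a, b, e, -⟩ := center_shape hm2 hF hf hg1 hg2
  have hPA : PA 2 (g * β x00 * g⁻¹) := by
    have := ((PA_rt h2 hF hf (by norm_num) (ee_ne (Sum.inl (i0 hm2))) (one_ne_zero (α := F))).map β).map (MulAut.conj g)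
    rwa [MulAut.conj_apply] at this
  have e' : g * β x00 * g⁻¹ = mk (NN (ee (Sum.inl (0 : Fin 2))) (ee (Sum.inl (1 : Fin 2))) a 0 b) := e
  by_cases hb : b = 0
  · left
    subst hb
    apply pres_of_x0 h2 (g := g) (a := a)
    rw [e', rt, tv_eq_NN_left (u := ee (Sum.inl (0 : Fin 2))) (v := ee (Sum.inl (1 : Fin 2))) (f_ee_inl_inl _ _)]
  · by_cases ha : a = 0
    · right
      subst ha
      apply pres_of_x0 h2 (g := (Psi h2).symm g) (a := b)
      apply (Psi h2).injective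
      have e2 : (Psi h2) ((β.trans (Psi h2).symm) x00) = β x00 := by simp
      rw [map_mul, map_mul, map_inv, e2, MulEquiv.apply_symm_apply, e', rt, Psi_mk, psiH_L]
      simp [NN, tv_zero]
    · exfalso
      rw [e'] at hPA
      exact not_PA2 h2 hF hf ha hb hPA

lemma pres_symm {β : PSp 2 F ≃* PSp 2 F} (h : Pres β) : Pres β.symm := by
  classical
  let L : Set (PSp 2 F) := {y | ∃ (u : VV 2 F) (c : F), u ≠ 0 ∧ c ≠ 0 ∧ y = rt u c}
  have hmem : ∀ y ∈ L, β y ∈ L := by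
    rintro y ⟨u, c, hu, hc, rfl⟩
    exact h u c hu hc
  let φ : L → L := fun y => ⟨β y.1, hmem _ y.2⟩
  have hinj : Function.Injective φ := by
    intro a b hab
    apply Subtype.ext
    exact β.injective (congrArg Subtype.val hab)
  have hsurj := Finite.injective_iff_surjective.mp hinj
  intro u c hu hc
  obtain ⟨⟨y, u', c', hu', hc', e⟩, hy⟩ := hsurj ⟨rt u c, u, c, hu, hc, rfl⟩
  have h1 : β y = rt u c := congrArg Subtype.val hy
  refine ⟨u', c', hu', hc', ?_⟩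
  rw [← h1, MulEquiv.symm_apply_apply, e]

lemma fieldH_one (g : SpG 2 F) : fieldH (1 : F ≃+* F) g = g := by
  apply Subtype.ext
  rw [fieldH_coe]
  ext i j
  rfl

lemma fieldH_mul (σ τ : F ≃+* F) (g : SpG 2 F) : fieldH (σ * τ) g = fieldH σ (fieldH τ g) := by
  apply Subtype.ext
  rw [fieldH_coe, fieldH_coe, fieldH_coe]
  ext i j
  rfl

lemma Psi_pow (h2 : (2 : F) = 0) (j : ℕ) (s : SpG 2 F) :
    (((Psi h2 : MulAut (PSp 2 F)) ^ (2 * j)) (mk s)) = mk (fieldH (sq2 h2 ^ j) s) := by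
  induction j generalizing s with
  | zero => simp [fieldH_one]
  | succ j ih =>
    rw [show 2 * (j + 1) = 2 * j + 2 by ring, pow_add, pow_two]
    show ((Psi h2 : MulAut (PSp 2 F)) ^ (2 * j)) (Psi h2 (Psi h2 (mk s))) = _
    rw [Psi_mk, Psi_mk, psi_psi, ih, pow_succ, fieldH_mul]

section gal

variable {f' : ℕ}

lemma sq2_gal (h2 : (2 : F) = 0) (hF : Fintype.card F = 2 ^ f') (hf : 1 ≤ f') :
    orderOf (sq2 h2) = f' ∧ ∀ σ : F ≃+* F, ∃ j : ℕ, σ = sq2 h2 ^ j := by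
  classical
  have : CharP F 2 := by
    have : Nonempty F := ⟨0⟩
    exact CharTwo.of_one_ne_zero_of_two_eq_zero one_ne_zero h2
  let := ZMod.algebra F 2
  have hfin : Module.finrank (ZMod 2) F = f' := by
    have h1 := Module.card_eq_pow_finrank (K := ZMod 2) (V := F)
    rw [hF, ZMod.card] at h1
    exact (Nat.pow_right_injective (le_refl 2) h1).symm
  let e : (F ≃+* F) ≃* (F ≃ₐ[ZMod 2] F) :=
    { toFun := fun σ => AlgEquiv.ofRingEquiv (f := σ) (fun r => by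
        have : (σ : F →+* F).comp (algebraMap (ZMod 2) F) = algebraMap (ZMod 2) F := Subsingleton.elim _ _
        exact congrFun (congrArg DFunLike.coe this) r)
      invFun := fun τ => τ.toRingEquiv
      left_inv := fun σ => by ext; rfl
      right_inv := fun τ => by ext; rfl
      map_mul' := fun σ τ => by ext; rfl }
  have he : e (sq2 h2) = FiniteField.frobeniusAlgEquivOfAlgebraic (ZMod 2) F := by
    ext x
    show x * x = x ^ Fintype.card (ZMod 2)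
    rw [ZMod.card, pow_two]
  constructor
  · rw [← e.orderOf_eq, he, FiniteField.orderOf_frobeniusAlgEquivOfAlgebraic, hfin]
  · intro σ
    obtain ⟨n, hn⟩ := (FiniteField.bijective_frobeniusAlgEquivOfAlgebraic_pow (ZMod 2) F).2 (e σ)
    refine ⟨n.1, e.injective ?_⟩
    rw [map_pow, he]
    exact hn.symm

end gal

lemma pres_decomp (h2 : (2 : F) = 0) {f' : ℕ} (hF : Fintype.card F = 2 ^ f') (hf : 1 ≤ f') {β : PSp 2 F ≃* PSp 2 F} (h : Pres β) :
    ∃ (y : PSp 2 F) (j : ℕ), (β : MulAut (PSp 2 F)) = MulAut.conj y * (Psi h2 : MulAut (PSp 2 F)) ^ (2 * j) := by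
  classical
  obtain ⟨g, σ, hg, hI⟩ := semilinear_of_pres (le_refl 2) h (pres_symm h)
  obtain ⟨l, hl⟩ := hg
  obtain ⟨r, hr⟩ := exists_sqrt h2 (l : F)
  have hr0 : r ≠ 0 := by
    rintro rfl
    exact l.ne_zero (by rw [← hr, mul_zero])
  have hmem : r⁻¹ • (g : MM 2 F) ∈ symplecticGroup (Fin 2) F := by
    rw [mem_symplecticGroup_iff_preserves]
    intro x y
    rw [Matrix.smul_mulVec, Matrix.smul_mulVec, sympForm_smul_left, sympForm_smul_right, hl, ← hr]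
    field_simp
  let G' : SpG 2 F := ⟨r⁻¹ • (g : MM 2 F), hmem⟩
  have hG' : (G' : MM 2 F) = r⁻¹ • (g : MM 2 F) := rfl
  have hginv : (g : MM 2 F) * ((g⁻¹ : GL (II 2) F) : MM 2 F) = 1 := by
    rw [← Units.val_mul, mul_inv_cancel, Units.val_one]
  have hinv : ((G'⁻¹ : SpG 2 F) : MM 2 F) = r • ((g⁻¹ : GL (II 2) F) : MM 2 F) := by
    have h1 : ((G'⁻¹ : SpG 2 F) : MM 2 F) * (G' : MM 2 F) = 1 := by
      have : ((G'⁻¹ * G' : SpG 2 F) : MM 2 F) = ((G'⁻¹ : SpG 2 F) : MM 2 F) * (G' : MM 2 F) := rfl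
      rw [← this, inv_mul_cancel]
      rfl
    have h3 : (G' : MM 2 F) * (r • ((g⁻¹ : GL (II 2) F) : MM 2 F)) = 1 := by
      rw [hG', Matrix.smul_mul, Matrix.mul_smul, hginv, smul_smul, inv_mul_cancel₀ hr0, one_smul]
    calc ((G'⁻¹ : SpG 2 F) : MM 2 F) = ((G'⁻¹ : SpG 2 F) : MM 2 F) * ((G' : MM 2 F) * (r • ((g⁻¹ : GL (II 2) F) : MM 2 F))) := by
          rw [h3, Matrix.mul_one]
      _ = _ := by rw [← Matrix.mul_assoc, h1, Matrix.one_mul]
  obtain ⟨j, hj⟩ := (sq2_gal h2 hF hf).2 σ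
  refine ⟨mk G', j, ?_⟩
  ext x
  obtain ⟨s, rfl⟩ := mk_surj x
  have e1 : ((G' * fieldH σ s * G'⁻¹ : SpG 2 F) : MM 2 F) =
      (g : MM 2 F) * (s : MM 2 F).map σ * ((g⁻¹ : GL (II 2) F) : MM 2 F) := by
    have : ((G' * fieldH σ s * G'⁻¹ : SpG 2 F) : MM 2 F) =
      (G' : MM 2 F) * ((fieldH σ s : SpG 2 F) : MM 2 F) * ((G'⁻¹ : SpG 2 F) : MM 2 F) := rfl
    rw [this, hinv, hG', fieldH_coe]
    simp only [Matrix.smul_mul, Matrix.mul_smul, smul_smul, inv_mul_cancel₀ hr0, mul_inv_cancel₀ hr0, one_smul]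
  have e2 := hI s _ e1
  show β (mk s) = mk G' * (((Psi h2 : MulAut (PSp 2 F)) ^ (2 * j)) (mk s)) * (mk G')⁻¹
  have e3 : β (mk s) = _ := e2
  rw [e3, Psi_pow, ← hj]
  show mk (G' * fieldH σ s * G'⁻¹) = _
  rw [map_mul, map_mul, map_inv]

lemma two_eq_zero_of_card {f' : ℕ} (hF : Fintype.card F = 2 ^ f') (hf : 1 ≤ f') : (2 : F) = 0 := by
  have h := FiniteField.cast_card_eq_zero F
  rw [hF] at h
  push_cast at h
  exact pow_eq_zero_iff (by omega) |>.mp h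

lemma odd_not_inner (h2 : (2 : F) = 0) (j : ℕ) (y : PSp 2 F) :
    MulAut.conj y ≠ (Psi h2 : MulAut (PSp 2 F)) ^ (2 * j + 1) := by
  classical
  intro h
  obtain ⟨g, rfl⟩ := mk_surj y
  have h1 := DFunLike.congr_fun h (mk (tv (ee (Sum.inl (0 : Fin 2))) (1 : F)))
  rw [pow_succ'] at h1
  have h3 : ((Psi h2 : MulAut (PSp 2 F)) * (Psi h2 : MulAut (PSp 2 F)) ^ (2 * j)) (mk (tv (ee (Sum.inl (0 : Fin 2))) (1 : F))) =
      Psi h2 (((Psi h2 : MulAut (PSp 2 F)) ^ (2 * j)) (mk (tv (ee (Sum.inl (0 : Fin 2))) (1 : F)))) := rfl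
  rw [h3, Psi_pow, fieldH_tv, map_one, Psi_mk, psiH_L, MulAut.conj_apply, ← rt, rt_conj, rt] at h1
  have h4 := mk_inj_two h2 (by norm_num) h1
  set u := (g : MM 2 F) *ᵥ ee (Sum.inl 0) with hu
  have hff : ff (ee (Sum.inl 0)) (ee (Sum.inl 1)) = 0 := f_ee_inl_inl _ _
  have e0 : (ee (Sum.inr 0) : VV 2 F) = _ := rfl
  have a1 := congrArg (fun t : SpG 2 F => (t : MM 2 F) *ᵥ (ee (Sum.inr 0) : VV 2 F)) h4
  have a2 := congrArg (fun t : SpG 2 F => (t : MM 2 F) *ᵥ (ee (Sum.inr 1) : VV 2 F)) h4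
  simp only [tv_mulVec, prs_l0] at a1 a2
  rw [SS_mv hff, f_right_two h2, f_right_two h2] at a1 a2
  simp only [add_right_inj] at a1 a2
  have b1 := congrFun a1 (Sum.inl 1)
  have b2 := congrFun a1 (Sum.inl 0)
  have b3 := congrFun a2 (Sum.inl 1)
  have b4 := congrFun a2 (Sum.inl 0)
  simp [Pi.single_apply] at b1 b2 b3 b4
  rcases b2 with b2 | b2
  · rw [b2, zero_mul] at b1
    exact zero_ne_one b1
  · rw [b2, mul_zero] at b4
    exact zero_ne_one b4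

lemma even_inner (h2 : (2 : F) = 0) (j : ℕ) (y : PSp 2 F)
    (h : MulAut.conj y = (Psi h2 : MulAut (PSp 2 F)) ^ (2 * j)) : sq2 h2 ^ j = 1 := by
  classical
  obtain ⟨g, rfl⟩ := mk_surj y
  have key : ∀ c : F, tv (ee (Sum.inl (0 : Fin 2))) ((sq2 h2 ^ j) c) = tv ((g : MM 2 F) *ᵥ ee (Sum.inl (0 : Fin 2))) c := by
    intro c
    have h1 := DFunLike.congr_fun h (mk (tv (ee (Sum.inl (0 : Fin 2))) c))
    rw [Psi_pow, fieldH_tv, MulAut.conj_apply, ← rt, rt_conj, ← rt] at h1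
    exact (rt_inj (by norm_num) h1).symm
  set u := (g : MM 2 F) *ᵥ ee (Sum.inl (0 : Fin 2)) with hu
  have k1 := key 1
  rw [map_one] at k1
  obtain ⟨l, hl0, hl⟩ := tv_par (ee_ne _) (one_ne_zero (α := F)) k1
  have hl1 : l = 1 := by
    have h3 : tv u (1 : F) = tv u (1 * l * l) := by
      rw [← k1, hl, tv_smul]
    have h4 : tv u (1 * l * l + (-1 : F)) = 1 := by
      rw [← tv_mul, ← h3, tv_mul]
      simp
    have hu0 : u ≠ 0 := mv_ne_zero g (ee_ne _)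
    rw [tv_eq_one_iff hu0] at h4
    have : (l - 1) * (l - 1) = 0 := by
      linear_combination h4 + (1 - l) * h2
    exact sub_eq_zero.mp (mul_self_eq_zero.mp this)
  subst hl1
  rw [one_smul] at hl
  rw [← hl] at key
  ext c
  have h5 : tv (ee (Sum.inl (0 : Fin 2))) ((sq2 h2 ^ j) c + (-c)) = (1 : SpG 2 F) := by
    rw [← tv_mul, key c, tv_mul]
    simp
  rw [tv_eq_one_iff (ee_ne _)] at h5
  show (sq2 h2 ^ j) c = c
  linear_combination h5

theorem out_psp4 {f' : ℕ} (hf : 1 ≤ f') (hF : Fintype.card F = 2 ^ f') :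
    IsCyclic (Cfsg.Out (PSp 2 F)) ∧ Nat.card (Cfsg.Out (PSp 2 F)) = 2 * f' := by
  classical
  have h2 : (2 : F) = 0 := two_eq_zero_of_card hF hf
  let π : MulAut (PSp 2 F) →* Cfsg.Out (PSp 2 F) := QuotientGroup.mk' _
  let φ : Cfsg.Out (PSp 2 F) := π (Psi h2)
  have hconj : ∀ y, π (MulAut.conj y) = 1 := by
    intro y
    apply (QuotientGroup.eq_one_iff _).2
    exact ⟨y, rfl⟩
  have hgen : ∀ x : Cfsg.Out (PSp 2 F), ∃ k : ℕ, x = φ ^ k := by
    intro x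
    obtain ⟨β, rfl⟩ := QuotientGroup.mk_surjective x
    rcases dich h2 hF hf β with h | h
    · obtain ⟨y, j, e⟩ := pres_decomp h2 hF hf h
      refine ⟨2 * j, ?_⟩
      show π β = _
      rw [e, map_mul, hconj, one_mul, map_pow]
    · obtain ⟨y, j, e⟩ := pres_decomp h2 hF hf h
      refine ⟨1 + 2 * j, ?_⟩
      have e' : β = (Psi h2 : MulAut (PSp 2 F)) * (MulAut.conj y * (Psi h2 : MulAut (PSp 2 F)) ^ (2 * j)) := by
        rw [← e]
        ext t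
        show β t = (Psi h2) ((Psi h2).symm (β t))
        simp
      show π β = _
      rw [e', map_mul, map_mul, hconj, one_mul, map_pow, pow_add, pow_one]
  have hker : ∀ k : ℕ, φ ^ k = 1 → 2 * f' ∣ k := by
    intro k hk
    have h1 : (Psi h2 : MulAut (PSp 2 F)) ^ k ∈ Cfsg.Inn (PSp 2 F) := by
      apply (QuotientGroup.eq_one_iff _).1
      have : π ((Psi h2 : MulAut (PSp 2 F)) ^ k) = φ ^ k := map_pow π _ _
      exact this.trans hk
    obtain ⟨y, hy⟩ := h1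
    rcases Nat.even_or_odd' k with ⟨j, rfl | rfl⟩
    · have h3 := even_inner h2 j y hy
      have h4 : f' ∣ j := by
        rw [← (sq2_gal h2 hF hf).1]
        exact orderOf_dvd_of_pow_eq_one h3
      exact Nat.mul_dvd_mul_left 2 h4
    · exact absurd hy (odd_not_inner h2 j y)
  have hpow : φ ^ (2 * f') = 1 := by
    have e1 : ((Psi h2 : MulAut (PSp 2 F)) ^ (2 * f')) = 1 := by
      ext x
      obtain ⟨s, rfl⟩ := mk_surj x
      rw [Psi_pow, ← (sq2_gal h2 hF hf).1, pow_orderOf_eq_one, fieldH_one]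
      rfl
    have : π ((Psi h2 : MulAut (PSp 2 F)) ^ (2 * f')) = φ ^ (2 * f') := map_pow π _ _
    rw [← this, e1, map_one]
  have hord : orderOf φ = 2 * f' :=
    Nat.dvd_antisymm (orderOf_dvd_of_pow_eq_one hpow) (hker _ (pow_orderOf_eq_one φ))
  have hz : ∀ x : Cfsg.Out (PSp 2 F), x ∈ Subgroup.zpowers φ := by
    intro x
    obtain ⟨k, rfl⟩ := hgen x
    exact Subgroup.npow_mem_zpowers _ _
  refine ⟨⟨φ, fun x => ?_⟩, ?_⟩
  · obtain ⟨k, hk⟩ := (Subgroup.mem_zpowers_iff).1 (hz x)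
    exact ⟨k, hk⟩
  · rw [← orderOf_eq_card_of_forall_mem_zpowers hz, hord]

end Cfsg.Agent.Lib.AutPSp
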